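import Cfsg.Agent.Lib.Extra2.Core
import Cfsg.Agent.Lib.Core
import Cfsg.Agent.Lib.Involution
import Cfsg.Agent.Lib.InvolutionCount
import Mathlib.GroupTheory.Perm.Sign

/-! Singular involutions of a large extraspecial 2-subgroup: symmetry of orthogonality (owner helper8). -/

set_option autoImplicit false
set_option linter.all false

open scoped commutatorElement

namespace CfsgLib.Extra2

variable {G : Type*} [Group G] [Finite G]

theorem isPGroup_two_of_forall_sq {H : Subgroup G} (h : ∀ u ∈ H, u * u = 1) : IsPGroup 2 ↥H :=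
  fun u => ⟨1, Subtype.ext (by rw [pow_one, pow_two]; exact h u.1 u.2)⟩

theorem not_commutator_of_small_class {t a b : G} (ht : orderOf t = 2) (hab : ⁅a, b⁆ = t)
    (hcl : (conjugatesOf t).ncard ≤ 3) (hO : ∀ N : Subgroup G, N.Normal → IsPGroup 2 ↥N → N = ⊥) : False := by
  classical
  have hS : ∀ g : G, ∀ s ∈ conjugatesOf t, g * s * g⁻¹ ∈ conjugatesOf t := fun g s hs =>
    IsConj.trans hs (isConj_iff.mpr ⟨g, rfl⟩)
  have h2 : ∀ s ∈ conjugatesOf t, orderOf s = 2 := fun s hs => by
    obtain ⟨g, rfl⟩ := isConj_iff.mp hs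
    exact Involution.orderOf_conj' ht
  -- two conjugates fail to commute
  obtain ⟨s₀, hs₀, t₀, ht₀, hne₀⟩ : ∃ s ∈ conjugatesOf t, ∃ s' ∈ conjugatesOf t, ¬ Commute s s' := by
    by_contra hcon
    push Not at hcon
    set N := Subgroup.closure (conjugatesOf t) with hN
    have hn : N.Normal := by
      have e : N = Subgroup.normalClosure {t} := by simp [hN, Subgroup.normalClosure, Group.conjugatesOfSet]
      rw [e]; exact Subgroup.normalClosure_normal
    have hmc : IsMulCommutative ↥N := Subgroup.isMulCommutative_closure fun u hu v hv => (hcon u hu v hv).eq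
    have hc : ∀ u ∈ N, ∀ v ∈ N, u * v = v * u := fun u hu v hv =>
      congrArg Subtype.val (hmc.is_comm.comm (⟨u, hu⟩ : ↥N) ⟨v, hv⟩)
    have hp : IsPGroup 2 ↥N := isPGroup_two_of_forall_sq fun u hu => by
      induction hu using Subgroup.closure_induction with
      | mem v hv => exact Involution.mul_self (h2 v hv)
      | one => rw [one_mul]
      | mul u v hu hv ihu ihv =>
        calc u * v * (u * v) = u * (v * u) * v := by group
          _ = u * (u * v) * v := by rw [hc v hv u hu]
          _ = (u * u) * (v * v) := by group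
          _ = 1 := by rw [ihu, ihv, one_mul]
      | inv u hu ih => rw [← mul_inv_rev, ih, inv_one]
    have := hO N hn hp
    have htN : t ∈ N := Subgroup.subset_closure (IsConj.refl t)
    rw [this, Subgroup.mem_bot] at htN
    exact Involution.ne_one ht htN
  obtain ⟨s, hs, hst⟩ : ∃ s ∈ conjugatesOf t, ¬ Commute t s := by
    obtain ⟨g, hg⟩ := isConj_iff.mp hs₀
    refine ⟨g⁻¹ * t₀ * g⁻¹⁻¹, hS g⁻¹ t₀ ht₀, fun h => hne₀ ?_⟩
    have h' := h.map (MulAut.conj g).toMonoidHom
    simp only [MulEquiv.coe_toMonoidHom, MulAut.conj_apply] at h'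
    rw [hg] at h'
    simpa [mul_assoc] using h'
  set s' := t * s * t⁻¹ with hs'
  have n1 : s ≠ t := fun h => hst (by rw [h])
  have n2 : s' ≠ s := fun h => hst (mul_inv_eq_iff_eq_mul.mp h)
  have n3 : s' ≠ t := fun h => hst (by
    have : s = t := by
      have h' : s = t⁻¹ * s' * t := by rw [hs']; group
      rw [h', h]; group
    rw [this])
  have hset : conjugatesOf t = {t, s, s'} := by
    refine (Set.eq_of_subset_of_ncard_le ?_ ?_ (Set.toFinite _)).symm
    · rintro u (rfl | rfl | rfl)
      · exact IsConj.refl _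
      · exact hs
      · exact hS t s hs
    · rw [Set.ncard_eq_three.mpr ⟨t, s, s', Ne.symm n1, Ne.symm n3, Ne.symm n2, rfl⟩]
      exact hcl
  let f : G →* Equiv.Perm ↥(conjugatesOf t) :=
    { toFun := fun g =>
        ⟨fun u => ⟨g * u.1 * g⁻¹, hS g _ u.2⟩, fun u => ⟨g⁻¹ * u.1 * g⁻¹⁻¹, hS g⁻¹ _ u.2⟩,
          fun u => Subtype.ext (show g⁻¹ * (g * u.1 * g⁻¹) * g⁻¹⁻¹ = u.1 by group),
          fun u => Subtype.ext (show g * (g⁻¹ * u.1 * g⁻¹⁻¹) * g⁻¹ = u.1 by group)⟩
      map_one' := Equiv.ext fun u => Subtype.ext (show (1 : G) * u.1 * 1⁻¹ = u.1 by group)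
      map_mul' := fun g h => Equiv.ext fun u => Subtype.ext
        (show g * h * u.1 * (g * h)⁻¹ = g * (h * u.1 * h⁻¹) * g⁻¹ by group) }
  have hft : f t = Equiv.swap ⟨s, hs⟩ ⟨s', hS t s hs⟩ := by
    refine Equiv.ext fun ⟨u, hu⟩ => ?_
    refine Subtype.ext ?_
    show t * u * t⁻¹ = _
    have hu' := hu
    rw [hset] at hu'
    rcases hu' with rfl | rfl | rfl
    · rw [Equiv.swap_apply_of_ne_of_ne (fun h => n1 (congrArg Subtype.val h).symm)
        (fun h => n3 (congrArg Subtype.val h).symm), mul_inv_cancel_right]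
    · rw [Equiv.swap_apply_left]
    · rw [Equiv.swap_apply_right]
      show t * (t * s * t⁻¹) * t⁻¹ = s
      rw [Involution.inv_eq ht]
      calc t * (t * s * t) * t = t * t * s * (t * t) := by group
        _ = s := by rw [Involution.mul_self ht, one_mul, mul_one]
  haveI : Fintype ↥(conjugatesOf t) := Fintype.ofFinite _
  have h1 : Equiv.Perm.sign (f t) = -1 := by
    rw [hft, Equiv.Perm.sign_swap]
    exact fun h => n2 (congrArg Subtype.val h).symm
  have h1' : Equiv.Perm.sign (f ⁅a, b⁆) = -1 := by rw [hab]; exact h1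
  rw [map_commutatorElement, map_commutatorElement] at h1'
  rw [commutatorElement_def, mul_comm (Equiv.Perm.sign (f a)), mul_inv_cancel_right, mul_inv_cancel] at h1'
  exact absurd h1' (by decide)

/-- The data of one singular involution. -/
structure Big (Q : G → Subgroup G) (x : G) : Prop where
  order : orderOf x = 2
  ext : IsExt x (Q x)
  self : Subgroup.centralizer ((Q x : Subgroup G) : Set G) ≤ Q x

section

variable {Q : G → Subgroup G}
  (hQ : ∀ x : G, Q x = (Cfsg.pCore 2 ↥(Subgroup.centralizer ({x} : Set G))).map (Subgroup.centralizer ({x} : Set G)).subtype)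

include hQ

theorem Q_le (x : G) : Q x ≤ Subgroup.centralizer ({x} : Set G) := by
  rw [hQ]; exact Subgroup.map_subtype_le _

theorem Q_conj_mem (x : G) {c q : G} (hc : c ∈ Subgroup.centralizer ({x} : Set G)) (hq : q ∈ Q x) :
    c * q * c⁻¹ ∈ Q x := by
  rw [hQ] at hq ⊢
  obtain ⟨q', hq', rfl⟩ := hq
  haveI := CfsgLib.Core.pCore_characteristic (G := ↥(Subgroup.centralizer ({x} : Set G))) 2
  exact ⟨⟨c, hc⟩ * q' * ⟨c, hc⟩⁻¹, Subgroup.Normal.conj_mem inferInstance q' hq' _, rfl⟩

theorem Q_isPGroup (x : G) : IsPGroup 2 ↥(Q x) := by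
  haveI : Fact (Nat.Prime 2) := ⟨Nat.prime_two⟩
  rw [hQ]; exact (CfsgLib.Core.isPGroup_pCore 2).map _

theorem Q_max (x : G) {N : Subgroup G} (hle : N ≤ Subgroup.centralizer ({x} : Set G)) (hp : IsPGroup 2 ↥N)
    (hn : ∀ c ∈ Subgroup.centralizer ({x} : Set G), ∀ q ∈ N, c * q * c⁻¹ ∈ N) : N ≤ Q x := by
  rw [hQ]
  have h1 : (N.subgroupOf (Subgroup.centralizer ({x} : Set G))).Normal :=
    ⟨fun q hq c => hn c.1 c.2 q.1 hq⟩
  have h2 := CfsgLib.Core.le_pCore h1 hp.comap_subtype
  intro q hq
  exact ⟨⟨q, hle hq⟩, h2 hq, rfl⟩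

theorem Q_conj (g x : G) : Q (g * x * g⁻¹) = (Q x).map (MulAut.conj g).toMonoidHom := by
  have hC : ∀ g x c : G, c ∈ Subgroup.centralizer ({x} : Set G) →
      g * c * g⁻¹ ∈ Subgroup.centralizer ({g * x * g⁻¹} : Set G) := fun g x c hc => by
    rw [Subgroup.mem_centralizer_singleton_iff] at hc ⊢
    calc g * c * g⁻¹ * (g * x * g⁻¹) = g * (c * x) * g⁻¹ := by group
      _ = g * (x * c) * g⁻¹ := by rw [hc]
      _ = _ := by group
  have key : ∀ g x : G, (Q x).map (MulAut.conj g).toMonoidHom ≤ Q (g * x * g⁻¹) := by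
    intro g x
    refine Q_max hQ _ ?_ ((Q_isPGroup hQ x).map _) ?_
    · rintro _ ⟨q, hq, rfl⟩; exact hC g x q (Q_le hQ x hq)
    · rintro c hc _ ⟨q, hq, rfl⟩
      have hc' := hC g⁻¹ _ c hc
      rw [show g⁻¹ * (g * x * g⁻¹) * g⁻¹⁻¹ = x by group] at hc'
      refine ⟨_, Q_conj_mem hQ x hc' hq, ?_⟩
      show g * (g⁻¹ * c * g⁻¹⁻¹ * q * (g⁻¹ * c * g⁻¹⁻¹)⁻¹) * g⁻¹ = c * (g * q * g⁻¹) * c⁻¹
      group
  refine le_antisymm ?_ (key g x)
  intro q hq
  have h := key g⁻¹ (g * x * g⁻¹) ⟨q, hq, rfl⟩
  rw [show g⁻¹ * (g * x * g⁻¹) * g⁻¹⁻¹ = x by group] at h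
  exact ⟨_, h, show g * (g⁻¹ * q * g⁻¹⁻¹) * g⁻¹ = q by group⟩

theorem big_of_hyp (z : G) (hz : orderOf z = 2) (hE : Cfsg.IsExtraspecial 2 ↥(Q z))
    (hC : Subgroup.centralizer ((Q z : Subgroup G) : Set G) ≤ Q z) : Big Q z := by
  obtain ⟨z', hz'⟩ := isExt_of_extraspecial hE
  have hzc : ∀ q ∈ Q z, q * z = z * q := fun q hq => Subgroup.mem_centralizer_singleton_iff.mp (Q_le hQ z hq)
  have hzQ : z ∈ Q z := hC fun q hq => hzc q hq
  have e : z = z' := (hz'.center z hzQ fun q hq => hzc q hq).resolve_left (Involution.ne_one hz)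
  exact ⟨hz, e ▸ hz', hC⟩

theorem big_conj {x : G} (h : Big Q x) (g : G) : Big Q (g * x * g⁻¹) := by
  refine ⟨Involution.orderOf_conj' h.order, ?_, ?_⟩
  · rw [Q_conj hQ]; exact h.ext.conj g
  · rw [Q_conj hQ]
    intro c hc
    refine ⟨g⁻¹ * c * g, h.self fun q hq => ?_, show g * (g⁻¹ * c * g) * g⁻¹ = c by group⟩
    have h' := hc (g * q * g⁻¹) ⟨q, hq, rfl⟩
    calc q * (g⁻¹ * c * g) = g⁻¹ * ((g * q * g⁻¹) * c) * g := by group
      _ = g⁻¹ * (c * (g * q * g⁻¹)) * g := by rw [h']
      _ = _ := by group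

/-- Orthogonality is symmetric. -/
theorem symm {z x : G} (hz : Big Q z) (hconj : ∃ g : G, g * z * g⁻¹ = x) (hx : x ∈ Q z) : z ∈ Q x := by
  classical
  obtain ⟨g₀, hg₀⟩ := hconj
  have hbx : Big Q x := hg₀ ▸ big_conj hQ hz g₀
  have hE := hz.ext
  by_contra hzF
  have hxz : x ≠ z := fun e => hzF (by rw [e]; exact hE.mem)
  have hx2 : x * x = 1 := Involution.mul_self hbx.order
  have hx1 : x ≠ 1 := Involution.ne_one hbx.order
  set C := Subgroup.centralizer ({x} : Set G) with hC
  have hzC : z ∈ C := Subgroup.mem_centralizer_singleton_iff.mpr (hE.central x hx).eq.symm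
  set A := Q z ⊓ C with hA
  have hAmem : ∀ a ∈ Q z, (a ∈ A ↔ Commute a x) := fun a ha =>
    ⟨fun h => Subgroup.mem_centralizer_singleton_iff.mp h.2, fun h => ⟨ha, Subgroup.mem_centralizer_singleton_iff.mpr h⟩⟩
  have hxA : x ∈ A := (hAmem x hx).mpr (Commute.refl x)
  have hzA : z ∈ A := ⟨hE.mem, hzC⟩
  -- `Q z ⊓ Q x = ⟨x⟩`
  have hcap : ∀ y ∈ Q z, y ∈ Q x → y ∈ Subgroup.zpowers x := by
    intro y hy hy'
    have hyA : ∀ a ∈ A, Commute a y := by
      intro a ha
      refine commutatorElement_eq_one_iff_mul_comm.mp ((hE.comm_cases ha.1 hy).resolve_right fun e => hzF ?_)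
      rw [← e, commutatorElement_def]
      exact (Q x).mul_mem (Q_conj_mem hQ x ha.2 hy') ((Q x).inv_mem hy')
    set S := Subgroup.closure ({x, z} : Set G) with hS
    have hSE : S ≤ Q z := (Subgroup.closure_le _).mpr (by rintro u (rfl | rfl); exacts [hx, hE.mem])
    have hyS : y ∈ S := by
      by_contra hyS
      obtain ⟨g, hg, hgS, hgy⟩ := hE.exists_separating hSE (Subgroup.subset_closure (Or.inr rfl)) hy hyS
      rw [(hyA g ((hAmem g hg).mpr (hgS x (Subgroup.subset_closure (Or.inl rfl))))).eq, mul_inv_cancel_right] at hgy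
      exact hE.ne_one (left_eq_mul.mp hgy)
    obtain ⟨m, n, rfl⟩ : ∃ m n : ℤ, y = x ^ m * z ^ n := by
      have hc := hE.central x hx
      clear hy hy' hyA
      induction hyS using Subgroup.closure_induction with
      | mem u hu =>
        rcases hu with rfl | rfl
        · exact ⟨1, 0, by simp⟩
        · exact ⟨0, 1, by simp⟩
      | one => exact ⟨0, 0, by simp⟩
      | mul u v _ _ ihu ihv =>
        obtain ⟨a, b, rfl⟩ := ihu
        obtain ⟨c, d, rfl⟩ := ihv
        refine ⟨a + c, b + d, ?_⟩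
        rw [(hc.symm.zpow_zpow b c).mul_mul_mul_comm, zpow_add, zpow_add]
      | inv u _ ih =>
        obtain ⟨a, b, rfl⟩ := ih
        exact ⟨-a, -b, by rw [mul_inv_rev, ← zpow_neg, ← zpow_neg, (hc.symm.zpow_zpow (-b) (-a)).eq]⟩
    rcases mem_zpowers_cases hE.sq (Subgroup.zpow_mem _ (Subgroup.mem_zpowers z) n) with e | e
    · rw [e, mul_one]; exact Subgroup.zpow_mem _ (Subgroup.mem_zpowers x) m
    · rw [e] at hy'
      exact absurd (by simpa using (Q x).mul_mem ((Q x).zpow_mem hbx.ext.mem (-m)) hy') hzF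
  -- the local analysis in `C`
  have hxc : ∀ u ∈ C, Commute x u := fun u hu => (Subgroup.mem_centralizer_singleton_iff.mp hu).symm
  set F' := (Q x).subgroupOf C with hF'
  haveI : F'.Normal := ⟨fun q hq c => Q_conj_mem hQ x c.2 hq⟩
  set x' : ↥C := ⟨x, Q_le hQ x hbx.ext.mem⟩ with hx'
  have hF : IsExt x' F' := by
    refine ⟨hbx.ext.mem, Subtype.ext hx2, fun e => hx1 (congrArg Subtype.val e),
      fun a ha => Subtype.ext (hbx.ext.central a.1 ha).eq, fun a ha b hb => ?_, fun v hv h => ?_⟩
    · rcases hbx.ext.cases a.1 ha b.1 hb with e | e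
      · exact Or.inl (Subtype.ext e)
      · exact Or.inr (Subtype.ext e)
    · rcases hbx.ext.center v.1 hv (fun a ha => congrArg Subtype.val (h ⟨a, Q_le hQ x ha⟩ ha).eq) with e | e
      · exact Or.inl (Subtype.ext e)
      · exact Or.inr (Subtype.ext e)
  have hcore := core x' ⟨z, hzC⟩ F' (A.subgroupOf C) hF (fun u => Subtype.ext (hxc u.1 u.2).eq)
    (Subtype.ext hE.sq) hzF (fun c hc => hbx.self fun q hq => congrArg Subtype.val (hc ⟨q, Q_le hQ x hq⟩ hq))
    (fun a ha => Subtype.ext (hE.central a.1 ha.1).eq)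
    (fun a ha b hb => by
      rcases hE.cases a.1 ha.1 b.1 hb.1 with e | e
      · exact Or.inl (Subtype.ext e)
      · exact Or.inr (Subtype.ext e))
    (fun d hd hdz a ha => by
      have hdz' : (d : G) ∈ Subgroup.centralizer ({z} : Set G) :=
        Subgroup.mem_centralizer_singleton_iff.mpr (congrArg Subtype.val hdz.eq)
      have h1 : ⁅(a : G), (d : G)⁆ ∈ Q z := by
        rw [commutatorElement_def, mul_assoc, mul_assoc, ← mul_assoc (d : G)]
        exact (Q z).mul_mem ha.1 (Q_conj_mem hQ z hdz' ((Q z).inv_mem ha.1))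
      have h2 : ⁅(a : G), (d : G)⁆ ∈ Q x := by
        rw [commutatorElement_def]
        exact (Q x).mul_mem (Q_conj_mem hQ x a.2 hd) ((Q x).inv_mem hd)
      obtain ⟨k, hk⟩ := Subgroup.mem_zpowers_iff.mp (hcap _ h1 h2)
      exact Subgroup.mem_zpowers_iff.mpr ⟨k, Subtype.ext (by rw [SubgroupClass.coe_zpow]; exact hk)⟩)
  -- abelian subgroups of small index
  have small : ∀ K : Subgroup G, K ≤ Q z → (∀ g ∈ K, ∀ h ∈ K, Commute g h) →
      ∀ p ∈ Q z, ∀ q ∈ Q z, (∀ v ∈ Q z, (∀ k ∈ K, Commute k v) → Commute p v → Commute q v → v = 1 ∨ v = z) →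
      Nat.card ↥K ≤ 8 ∧ (q = 1 → Nat.card ↥K ≤ 4) := by
    intro K hK hab p hp q hq hcen
    have step : ∀ T ≤ K, ∀ p ∈ Q z, Nat.card ↥T ≤ 2 * Nat.card ↥(T ⊓ Subgroup.centralizer ({p} : Set G)) := by
      intro T hT p hp
      refine card_le_two_mul fun u hu v hv hu' hv' => ⟨T.mul_mem (T.inv_mem hu) hv, ?_⟩
      refine Subgroup.mem_centralizer_singleton_iff.mpr ?_
      refine ((hE.commute_mul_iff ((Q z).inv_mem (hK (hT hu))) (hK (hT hv)) hp).mpr (iff_of_false ?_ ?_)).eq
      · exact fun h => hu' ⟨hu, Subgroup.mem_centralizer_singleton_iff.mpr (by simpa using h.inv_left : Commute u p).eq⟩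
      · exact fun h => hv' ⟨hv, Subgroup.mem_centralizer_singleton_iff.mpr h.eq⟩
    have hfin : Nat.card ↥(K ⊓ Subgroup.centralizer ({p} : Set G) ⊓ Subgroup.centralizer ({q} : Set G)) ≤ 2 := by
      refine (Subgroup.card_le_of_le (K := Subgroup.zpowers z) fun v hv => ?_).trans
        (by rw [Nat.card_zpowers, hz.order])
      rcases hcen v (hK hv.1.1) (fun k hk => hab k hk v hv.1.1)
        (Subgroup.mem_centralizer_singleton_iff.mp hv.1.2).symm
        (Subgroup.mem_centralizer_singleton_iff.mp hv.2).symm with rfl | rfl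
      · exact Subgroup.one_mem _
      · exact Subgroup.mem_zpowers _
    have h1 := step K le_rfl p hp
    have h2 := step (K ⊓ Subgroup.centralizer ({p} : Set G)) inf_le_left q hq
    refine ⟨by omega, fun e => ?_⟩
    have : K ⊓ Subgroup.centralizer ({p} : Set G) ≤ K ⊓ Subgroup.centralizer ({p} : Set G) ⊓ Subgroup.centralizer ({q} : Set G) :=
      le_inf le_rfl fun v _ => Subgroup.mem_centralizer_singleton_iff.mpr (by rw [e, mul_one, one_mul])
    have := Subgroup.card_le_of_le this
    omega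
  obtain ⟨p, hp, hpx⟩ : ∃ p ∈ Q z, ¬ Commute p x := by
    by_contra hcon
    push Not at hcon
    rcases hE.center x hx hcon with e | e
    · exact hx1 e
    · exact hxz e
  have hdiv : ∀ u ∈ Q z, ∀ v ∈ Q z, u ∉ A → v ∉ A → u⁻¹ * v ∈ A := fun u hu v hv hu' hv' =>
    (hAmem _ ((Q z).mul_mem ((Q z).inv_mem hu) hv)).mpr ((hE.commute_mul_iff ((Q z).inv_mem hu) hv hx).mpr
      (iff_of_false (fun h => hu' ((hAmem u hu).mpr (by simpa using h.inv_left)))
        (fun h => hv' ((hAmem v hv).mpr h))))
  have hEA : Nat.card ↥(Q z) ≤ 2 * Nat.card ↥A := card_le_two_mul hdiv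
  -- from a generating set of coset representatives
  have hgen : ∀ v, (∀ a ∈ A, Commute a v) → Commute p v → ∀ e ∈ Q z, Commute e v := by
    intro v hAv hpv e he
    by_cases heA : e ∈ A
    · exact hAv e heA
    · have h := hdiv p hp e he (fun h => hpx ((hAmem p hp).mp h)) heA
      simpa using hpv.mul_left (hAv _ h)
  by_cases hAab : ∀ a ∈ A, ∀ b ∈ A, Commute a b
  · -- the order 8 case: the centraliser of `z` is a 2-group
    have h4 : Nat.card ↥A ≤ 4 := (small A inf_le_left hAab p hp 1 (Q z).one_mem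
      (fun v hv hK hpv _ => hE.center v hv (hgen v hK hpv))).2 rfl
    have hAeq : ∀ a ∈ A, a = 1 ∨ a = z ∨ a = x ∨ a = x * z := by
      intro a ha
      by_contra hcon
      push Not at hcon
      obtain ⟨n1, n2, n3, n4⟩ := hcon
      have hxz1 : x * z ≠ 1 := fun e => hxz (by
        rw [mul_eq_one_iff_eq_inv] at e; rw [e]; exact inv_eq_of_mul_eq_one_right hE.sq)
      have hsub : (↑({1, z, x, x * z, a} : Finset G) : Set G) ⊆ (A : Set G) := by
        intro u hu
        simp only [Finset.coe_insert, Finset.coe_singleton, Set.mem_insert_iff, Set.mem_singleton_iff] at hu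
        rcases hu with rfl | rfl | rfl | rfl | rfl
        exacts [A.one_mem, hzA, hxA, A.mul_mem hxA hzA, ha]
      have h5 := Set.ncard_le_ncard hsub (Set.toFinite _)
      rw [Set.ncard_coe_finset, ← Nat.card_coe_set_eq] at h5
      have : ({1, z, x, x * z, a} : Finset G).card = 5 := by
        rw [Finset.card_insert_of_notMem, Finset.card_insert_of_notMem, Finset.card_insert_of_notMem,
          Finset.card_insert_of_notMem, Finset.card_singleton]
        all_goals simp [Ne.symm n1, Ne.symm n2, Ne.symm n3, Ne.symm n4, hx1, Ne.symm hx1, hxz, Ne.symm hxz,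
          hE.ne_one, Ne.symm hE.ne_one, hxz1, Ne.symm hxz1]
      have h6 : Nat.card ↥((A : Set G)) ≤ 4 := h4
      omega
    have hCz : IsPGroup 2 ↥(Subgroup.centralizer ({z} : Set G)) := by
      have hsq : ∀ g ∈ Subgroup.centralizer ({z} : Set G), g * g ∈ Q z := by
        intro g hg
        have hgz : g * z * g⁻¹ = z := by
          rw [Subgroup.mem_centralizer_singleton_iff.mp hg, mul_inv_cancel_right]
        have hc : ∀ e ∈ Q z, g * e * g⁻¹ ∈ Q z := fun e he => Q_conj_mem hQ z hg he
        have hgxz : g * (x * z) * g⁻¹ = g * x * g⁻¹ * z := by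
          calc g * (x * z) * g⁻¹ = g * x * g⁻¹ * (g * z * g⁻¹) := by group
            _ = _ := by rw [hgz]
        have hinv : ∀ e : G, orderOf e = 2 → orderOf (g * e * g⁻¹) = 2 := fun e h => Involution.orderOf_conj' h
        have hfix : g * g * x * (g * g)⁻¹ = x ∨ g * g * x * (g * g)⁻¹ = x * z := by
          have e : g * g * x * (g * g)⁻¹ = g * (g * x * g⁻¹) * g⁻¹ := by group
          rw [e]
          set w := g * x * g⁻¹ with hw
          have hwQ : w ∈ Q z := hc x hx
          have hw2 : w * w = 1 := by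
            rw [hw]; calc g * x * g⁻¹ * (g * x * g⁻¹) = g * (x * x) * g⁻¹ := by group
              _ = 1 := by rw [hx2]; group
          have hw1 : w ≠ 1 := fun h => hx1 (conj_eq_one_iff.mp h)
          have hwz : w ≠ z := fun h => hxz (by
            have h' : g * x * g⁻¹ = g * z * g⁻¹ := by rw [hgz]; exact h
            exact mul_left_cancel (mul_right_cancel h'))
          by_cases hwA : w ∈ A
          · rcases hAeq w hwA with h | h | h | h
            · exact absurd h hw1
            · exact absurd h hwz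
            · left; rw [h]; exact h
            · left
              calc g * w * g⁻¹ = g * (x * z) * g⁻¹ := by rw [h]
                _ = x * z * z := by rw [hgxz, ← h]
                _ = x := by rw [mul_assoc, hE.sq, mul_one]
          · set v := g * w * g⁻¹ with hv
            have hvQ : v ∈ Q z := hc w hwQ
            have hv2 : v * v = 1 := by
              rw [hv]; calc g * w * g⁻¹ * (g * w * g⁻¹) = g * (w * w) * g⁻¹ := by group
                _ = 1 := by rw [hw2]; group
            by_cases hvA : v ∈ A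
            · rcases hAeq v hvA with h | h | h | h
              · exact absurd (conj_eq_one_iff.mp h) hw1
              · exact absurd (mul_left_cancel (mul_right_cancel (h.trans hgz.symm))) hwz
              · exact Or.inl h
              · exact Or.inr h
            · exfalso
              have hnc : ¬ Commute w x := fun h => hwA ((hAmem w hwQ).mpr h)
              have hwx : (w * x) * (w * x) = z := by
                calc (w * x) * (w * x) = w * x * (x * w * z) := by rw [← hE.mul_eq_of_not_commute hwQ hx hnc]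
                  _ = w * (x * x) * w * z := by group
                  _ = z := by rw [hx2, mul_one, hw2, one_mul]
              rcases hAeq _ (hdiv w hwQ v hvQ hwA hvA) with h | h | h | h <;>
                rw [inv_mul_eq_iff_eq_mul] at h
              · rw [mul_one] at h
                exact hnc (by rw [mul_left_cancel (mul_right_cancel (h : g * w * g⁻¹ = g * x * g⁻¹))])
              · have h' : g * w * g⁻¹ = g * (x * z) * g⁻¹ := by rw [hgxz]; exact h
                exact hnc (by rw [mul_left_cancel (mul_right_cancel h')]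
                              exact (Commute.refl x).mul_left (hE.central x hx).symm)
              · rw [h, hwx] at hv2; exact hE.ne_one hv2
              · have e2 : v * v = (w * x) * (w * x) * (z * z) := by
                  rw [h, ← mul_assoc w x z]
                  exact ((hE.central _ ((Q z).mul_mem hwQ hx)).symm.mul_mul_mul_comm _ _)
                rw [hv2, hwx, hE.sq, mul_one] at e2
                exact hE.ne_one e2.symm
        have hgg : ∀ e ∈ Q z, g * g * e * (g * g)⁻¹ = e ∨ g * g * e * (g * g)⁻¹ = e * z := by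
          intro e he
          have hggz : g * g * z * (g * g)⁻¹ = z := by
            calc g * g * z * (g * g)⁻¹ = g * (g * z * g⁻¹) * g⁻¹ := by group
              _ = z := by rw [hgz, hgz]
          have hggxz : g * g * (x * z) * (g * g)⁻¹ = g * g * x * (g * g)⁻¹ * z := by
            calc _ = g * g * x * (g * g)⁻¹ * (g * g * z * (g * g)⁻¹) := by group
              _ = _ := by rw [hggz]
          set e' := g * g * e * (g * g)⁻¹ with he'
          have he'Q : e' ∈ Q z := by
            have := hc _ (hc e he)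
            rw [he']; convert this using 1; group
          have hcomm : Commute e' x ↔ Commute e x := by
            have h : Commute e' (g * g * x * (g * g)⁻¹) ↔ Commute e x := by
              refine ⟨fun h => ?_, fun h => h.map (MulAut.conj (g * g)).toMonoidHom⟩
              have := h.map (MulAut.conj (g * g)⁻¹).toMonoidHom
              simpa [he', mul_assoc] using this
            rcases hfix with e1 | e1 <;> rw [e1] at h
            · exact h
            · have hz' := hE.central e' he'Q
              refine Iff.trans ⟨fun h' => h'.mul_right hz', fun h' => ?_⟩ h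
              simpa using h'.mul_right hz'.inv_right
          by_cases heA : e ∈ A
          · rcases hAeq e heA with rfl | rfl | rfl | rfl
            · left; rw [he']; group
            · exact Or.inl hggz
            · exact hfix
            · rcases hfix with h | h
              · left; rw [he', hggxz, h]
              · right; rw [he', hggxz, h]
          · have heA' : e' ∉ A := fun h => heA ((hAmem e he).mpr (hcomm.mp ((hAmem e' he'Q).mp h)))
            have hee : e' * e' = e * e := by
              have e1 : e' * e' = g * g * (e * e) * (g * g)⁻¹ := by rw [he']; group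
              rw [e1]
              rcases hE.sq_mem he with h | h <;> rw [h]
              · group
              · exact hggz
            have hnc : ¬ Commute e x := fun h => heA ((hAmem e he).mpr h)
            have hex : (e * x) * (e * x) = e * e * z := by
              calc (e * x) * (e * x) = e * x * (x * e * z) := by rw [← hE.mul_eq_of_not_commute he hx hnc]
                _ = e * (x * x) * e * z := by group
                _ = e * e * z := by rw [hx2, mul_one]
            rcases hAeq _ (hdiv e he e' he'Q heA heA') with h | h | h | h <;>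
              rw [inv_mul_eq_iff_eq_mul] at h
            · rw [mul_one] at h; exact Or.inl h
            · exact Or.inr h
            · exfalso; rw [h, hex] at hee; exact hE.ne_one (mul_eq_left.mp hee)
            · exfalso
              have e2 : e' * e' = (e * x) * (e * x) * (z * z) := by
                rw [h, ← mul_assoc e x z]
                exact ((hE.central _ ((Q z).mul_mem he hx)).symm.mul_mul_mul_comm _ _)
              rw [hee, hex, hE.sq, mul_one] at e2
              exact hE.ne_one (mul_eq_left.mp e2.symm)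
        have hggz : g * g * z * (g * g)⁻¹ = z := by
          calc g * g * z * (g * g)⁻¹ = g * (g * z * g⁻¹) * g⁻¹ := by group
            _ = z := by rw [hgz, hgz]
        obtain ⟨f, hf, hff⟩ := hE.exists_inner hggz hgg
        have hcc : f⁻¹ * (g * g) ∈ Subgroup.centralizer ((Q z : Subgroup G) : Set G) := by
          intro v hv
          calc v * (f⁻¹ * (g * g)) = f⁻¹ * (f * v * f⁻¹) * (g * g) := by group
            _ = f⁻¹ * (g * g * v * (g * g)⁻¹) * (g * g) := by rw [hff v hv]
            _ = _ := by group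
        simpa using (Q z).mul_mem hf (hz.self hcc)
      intro u
      obtain ⟨k, hk⟩ := (Q_isPGroup hQ z) ⟨_, hsq u.1 u.2⟩
      refine ⟨k + 1, Subtype.ext ?_⟩
      have := congrArg Subtype.val hk
      simp only [Subgroup.coe_pow, Subgroup.coe_one] at this ⊢
      rw [pow_succ', pow_mul, pow_two]
      exact this
    have hall : Subgroup.centralizer ({z} : Set G) ≤ Q z :=
      Q_max hQ z le_rfl hCz fun c hc q hq => Subgroup.mul_mem _ (Subgroup.mul_mem _ hc hq) (Subgroup.inv_mem _ hc)
    apply hzF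
    rw [← hg₀, Q_conj hQ]
    refine ⟨g₀⁻¹ * z * g₀, hall ?_, show g₀ * (g₀⁻¹ * z * g₀) * g₀⁻¹ = z by group⟩
    rw [Subgroup.mem_centralizer_singleton_iff]
    have h := (hE.central x hx).eq
    rw [← hg₀] at h
    calc g₀⁻¹ * z * g₀ * z = g₀⁻¹ * (z * (g₀ * z * g₀⁻¹)) * g₀ := by group
      _ = g₀⁻¹ * (g₀ * z * g₀⁻¹ * z) * g₀ := by rw [h]
      _ = _ := by group
  -- the main case
  push Not at hAab
  obtain ⟨a, ha, b, hb, hab⟩ := hAab
  obtain ⟨⟨K', hK'A, hK'ab, hK'two⟩, hcard⟩ := hcore.resolve_left fun h =>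
    hab (congrArg Subtype.val (h ⟨a, ha.2⟩ ha ⟨b, hb.2⟩ hb).eq)
  set K := K'.map C.subtype with hKdef
  have hKA : K ≤ A := by rintro _ ⟨k, hk, rfl⟩; exact hK'A hk
  have hKab : ∀ g ∈ K, ∀ h ∈ K, Commute g h := by
    rintro _ ⟨g, hg, rfl⟩ _ ⟨h, hh, rfl⟩; exact (hK'ab g hg h hh).map C.subtype
  have hKtwo : ∀ g ∈ A, ∀ h ∈ A, g ∉ K → h ∉ K → g⁻¹ * h ∈ K := fun g hg h hh hg' hh' =>
    ⟨_, hK'two ⟨g, hg.2⟩ hg ⟨h, hh.2⟩ hh (fun m => hg' ⟨_, m, rfl⟩) (fun m => hh' ⟨_, m, rfl⟩), rfl⟩
  obtain ⟨q, hq, hqK⟩ : ∃ q ∈ A, q ∉ K := by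
    by_contra hcon
    push Not at hcon
    exact hab (hKab a (hcon a ha) b (hcon b hb))
  have h8 : Nat.card ↥K ≤ 8 := (small K (hKA.trans inf_le_left) hKab p hp q hq.1 (fun v hv hK hpv hqv => by
    refine hE.center v hv (hgen v (fun u hu => ?_) hpv)
    by_cases huK : u ∈ K
    · exact hK u huK
    · simpa using hqv.mul_left (hK _ (hKtwo q hq u hu hqK huK)))).1
  have hAK : Nat.card ↥A ≤ 2 * Nat.card ↥K := card_le_two_mul hKtwo
  have h32 : Nat.card ↥(Q z) ≤ 32 := by omega
  have hFE : Nat.card ↥(Q x) = Nat.card ↥(Q z) := by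
    rw [← hg₀, Q_conj hQ]
    exact (Nat.card_congr (Subgroup.equivMapOfInjective _ _ (MulAut.conj g₀).injective).toEquiv).symm
  set zC : ↥C := ⟨z, hzC⟩ with hzC'
  set D' := F' ⊓ Subgroup.centralizer ({zC} : Set ↥C) with hD'
  have hF'card : Nat.card ↥F' = Nat.card ↥(Q x) :=
    Nat.card_congr (Subgroup.subgroupOfEquivOfLe (Q_le hQ x)).toEquiv
  have hD4 : Nat.card ↥D' ≤ 4 := by
    have h5 : 6 * Nat.card ↥D' ≤ 32 := hcard.trans (by omega)
    haveI : Fact (Nat.Prime 2) := ⟨Nat.prime_two⟩
    obtain ⟨n, hn⟩ := IsPGroup.iff_card.mp (((Q_isPGroup hQ x).comap_subtype (K := C)).to_le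
      (inf_le_left : D' ≤ F'))
    rcases Nat.lt_or_ge n 3 with h | h
    · rw [hn]; interval_cases n <;> norm_num
    · have := Nat.pow_le_pow_right (show 0 < 2 by omega) h
      rw [hn] at h5; omega
  -- counting
  let π := QuotientGroup.mk' F'
  set H := Subgroup.centralizer ({zC} : Set ↥C) with hH
  set CX := Subgroup.centralizer ({π zC} : Set (↥C ⧸ F')) with hCX
  have hHle : Nat.card ↥H ≤ Nat.card ↥D' * Nat.card ↥CX := by
    let φ : ↥H →* ↥CX := (π.comp H.subtype).codRestrict CX fun u => by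
      refine Subgroup.mem_centralizer_singleton_iff.mpr ?_
      show π u.1 * π zC = π zC * π u.1
      rw [← map_mul, ← map_mul, Subgroup.mem_centralizer_singleton_iff.mp u.2]
    have hk : Nat.card ↥φ.ker ≤ Nat.card ↥D' :=
      Nat.card_le_card_of_injective
        (fun u => (⟨(u : ↥H).1, (QuotientGroup.eq_one_iff _).mp (congrArg Subtype.val u.2), (u : ↥H).2⟩ : ↥D'))
        (fun u v h => by
          have := congrArg Subtype.val h
          exact Subtype.ext (Subtype.ext this))
    rw [← Subgroup.card_mul_index φ.ker, Subgroup.index_ker]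
    exact Nat.mul_le_mul hk (Subgroup.card_le_card_group _)
  -- the orbit of `x` under the centraliser of `z`
  set Cz := Subgroup.centralizer ({z} : Set G) with hCz
  have horbit : Nat.card ↥Cz < Nat.card ↥(Q z) * Nat.card ↥H := by
    let o : ↥Cz → ↥(Q z) := fun c => ⟨c.1 * x * c.1⁻¹, Q_conj_mem hQ z c.2 hx⟩
    haveI : Fintype ↥Cz := Fintype.ofFinite _
    haveI : Fintype ↥(Q z) := Fintype.ofFinite _
    have hfib : ∀ e : ↥(Q z), (Finset.univ.filter fun c => o c = e).card ≤ Nat.card ↥H := by
      intro e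
      by_cases hex : ∃ c, o c = e
      · obtain ⟨c₀, hc₀⟩ := hex
        rw [← Fintype.card_subtype, ← Nat.card_eq_fintype_card]
        have hmemC : ∀ c : {c // o c = e}, c₀.1⁻¹ * c.1.1 ∈ C ∧ c₀.1⁻¹ * c.1.1 ∈ Cz := by
          intro c
          refine ⟨?_, Cz.mul_mem (Cz.inv_mem c₀.2) c.1.2⟩
          have h : c.1.1 * x * c.1.1⁻¹ = c₀.1 * x * c₀.1⁻¹ := congrArg Subtype.val (c.2.trans hc₀.symm)
          rw [hC, Subgroup.mem_centralizer_singleton_iff]
          calc c₀.1⁻¹ * c.1.1 * x = c₀.1⁻¹ * (c.1.1 * x * c.1.1⁻¹) * c.1.1 := by group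
            _ = c₀.1⁻¹ * (c₀.1 * x * c₀.1⁻¹) * c.1.1 := by rw [h]
            _ = _ := by group
        refine Nat.card_le_card_of_injective
          (fun c => (⟨⟨_, (hmemC c).1⟩, Subgroup.mem_centralizer_singleton_iff.mpr
            (Subtype.ext (Subgroup.mem_centralizer_singleton_iff.mp (hmemC c).2))⟩ : ↥H)) ?_
        intro c c' h
        have := congrArg (fun u : ↥H => ((u : ↥C) : G)) h
        exact Subtype.ext (Subtype.ext (mul_left_cancel this))
      · rw [Finset.filter_eq_empty_iff.mpr (fun c _ h => hex ⟨c, h⟩)]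
        simp
    have h1e : (Finset.univ.filter fun c => o c = (1 : ↥(Q z))).card = 0 := by
      rw [Finset.card_eq_zero, Finset.filter_eq_empty_iff]
      exact fun c _ h => hx1 (conj_eq_one_iff.mp (congrArg Subtype.val h))
    have htot : Fintype.card ↥Cz = ∑ e : ↥(Q z), (Finset.univ.filter fun c => o c = e).card :=
      Finset.card_eq_sum_card_fiberwise (fun c _ => Finset.mem_univ _)
    rw [Nat.card_eq_fintype_card (α := ↥Cz), htot, Nat.card_eq_fintype_card (α := ↥(Q z))]
    calc _ < ∑ _e : ↥(Q z), Nat.card ↥H :=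
          Finset.sum_lt_sum (fun e _ => hfib e) ⟨1, Finset.mem_univ _, h1e ▸ Nat.card_pos⟩
      _ = _ := by rw [Finset.sum_const, Finset.card_univ, smul_eq_mul]
  have hCzx : Nat.card ↥Cz = Nat.card ↥C := by
    refine Nat.card_congr ((Subgroup.equivMapOfInjective _ (MulAut.conj g₀).toMonoidHom (MulAut.conj g₀).injective).trans
      (MulEquiv.subgroupCongr ?_)).toEquiv
    ext u
    rw [Subgroup.mem_map_equiv, MulAut.conj_symm_apply, hC, hCz, Subgroup.mem_centralizer_singleton_iff,
      Subgroup.mem_centralizer_singleton_iff, ← hg₀]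
    constructor <;> intro h
    · calc u * (g₀ * z * g₀⁻¹) = g₀ * (g₀⁻¹ * u * g₀ * z) * g₀⁻¹ := by group
        _ = g₀ * (z * (g₀⁻¹ * u * g₀)) * g₀⁻¹ := by rw [h]
        _ = _ := by group
    · calc g₀⁻¹ * u * g₀ * z = g₀⁻¹ * (u * (g₀ * z * g₀⁻¹)) * g₀ := by group
        _ = g₀⁻¹ * (g₀ * z * g₀⁻¹ * u) * g₀ := by rw [h]
        _ = _ := by group
  have hclass : (conjugatesOf (π zC)).ncard ≤ 3 := by
    have e := InvolutionCount.card_class_mul_card_centralizer (π zC)
    have e2 := Subgroup.card_eq_card_quotient_mul_card_subgroup F'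
    have e3 : Nat.card ↥(Q z) * Nat.card ↥H ≤ Nat.card ↥(Q z) * (4 * Nat.card ↥CX) :=
      Nat.mul_le_mul_left _ (hHle.trans (Nat.mul_le_mul_right _ hD4))
    rw [e2, ← e, hF'card, hFE] at hCzx
    by_contra h4
    have h4' : 4 ≤ Nat.card ↥(conjugatesOf (π zC)) := by rw [Nat.card_coe_set_eq]; omega
    have : Nat.card ↥(Q z) * (4 * Nat.card ↥CX) ≤ Nat.card ↥Cz := by
      rw [hCzx, mul_comm (Nat.card ↥(Q z))]
      exact Nat.mul_le_mul_right _ (Nat.mul_le_mul_right _ h4')
    omega
  refine not_commutator_of_small_class (t := π zC) (a := π ⟨a, ha.2⟩) (b := π ⟨b, hb.2⟩)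
    (Involution.orderOf_eq_two (by rw [← map_mul, show zC * zC = 1 from Subtype.ext hE.sq, map_one])
      (fun h => hzF ((QuotientGroup.eq_one_iff zC).mp h))) ?_ hclass ?_
  · rw [← map_commutatorElement]
    congr 1
    exact Subtype.ext ((hE.comm_cases ha.1 hb.1).resolve_left fun h =>
      hab (commutatorElement_eq_one_iff_mul_comm.mp h))
  · intro N hN hp2
    rw [← le_bot_iff]
    intro u hu
    obtain ⟨v, rfl⟩ := QuotientGroup.mk'_surjective F' u
    haveI : Fact (Nat.Prime 2) := ⟨Nat.prime_two⟩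
    have hpre : IsPGroup 2 ↥(N.comap π) := hp2.comap_of_ker_isPGroup π (by
      rw [QuotientGroup.ker_mk']; exact (Q_isPGroup hQ x).comap_subtype)
    have hle := Q_max hQ x (Subgroup.map_subtype_le (N.comap π)) (hpre.map C.subtype) (by
      rintro c hc _ ⟨w, hw, rfl⟩
      exact ⟨⟨c, hc⟩ * w * ⟨c, hc⟩⁻¹, (hN.comap π).conj_mem w hw _, rfl⟩)
    exact Subgroup.mem_bot.mpr ((QuotientGroup.eq_one_iff v).mpr (hle ⟨v, hu, rfl⟩))

end

end CfsgLib.Extra2
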