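import Mathlib
import Cfsg.Agent.Lib.Extra2.Basic
import Cfsg.Agent.Lib.Regular.Basic

/-! Orbit contributions to a transfer when an extraspecial subgroup fixes no point (owner helper7). -/

set_option autoImplicit false
set_option linter.all false

namespace CfsgLib.Extra2.TransferSq

variable {G X A : Type*} [Group G] [MulAction G X] [CommGroup A]

theorem prod_reindex [DecidableEq X] {S : Finset X} {y : G} (h : ∀ b ∈ S, y • b ∈ S) (f : X → A) :
    ∏ b ∈ S, f (y • b) = ∏ b ∈ S, f b := by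
  have hS : S.image (y • ·) = S :=
    Finset.eq_of_subset_of_card_le (Finset.image_subset_iff.mpr h) (by rw [Finset.card_image_of_injective _ (MulAction.injective y)])
  conv_rhs => rw [← hS]
  rw [Finset.prod_image (fun a _ b _ e => MulAction.injective y e)]

theorem image_inv [DecidableEq X] {S : Finset X} {y : G} (h : ∀ b ∈ S, y • b ∈ S) : ∀ b ∈ S, y⁻¹ • b ∈ S := by
  intro b hb
  have hS : S.image (y • ·) = S :=
    Finset.eq_of_subset_of_card_le (Finset.image_subset_iff.mpr h) (by rw [Finset.card_image_of_injective _ (MulAction.injective y)])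
  obtain ⟨c, hc, rfl⟩ := Finset.mem_image.mp (hS.symm ▸ hb : b ∈ S.image (y • ·))
  rwa [inv_smul_smul]

variable {a : G → X → A} (ha : ∀ g h c, a (g * h) c = a g (h • c) * a h c)
include ha

theorem prod_mul [DecidableEq X] {S : Finset X} {g h : G} (hh : ∀ b ∈ S, h • b ∈ S) :
    ∏ b ∈ S, a (g * h) b = (∏ b ∈ S, a g b) * ∏ b ∈ S, a h b := by
  simp only [ha]
  rw [Finset.prod_mul_distrib, prod_reindex hh]

theorem map_one' (c : X) : a 1 c = 1 := by
  have := ha 1 1 c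
  rwa [one_mul, one_smul, left_eq_mul] at this

theorem map_inv' (g : G) (c : X) : a g⁻¹ (g • c) = (a g c)⁻¹ := by
  have := ha g⁻¹ g c
  rw [inv_mul_cancel, map_one' ha] at this
  exact eq_inv_of_mul_eq_one_left this.symm

variable [Finite G] [Finite X] {z : G} {E T : Subgroup G} (hE : CfsgLib.Extra2.IsExt z E) (hA : ∀ u : A, u ^ 4 = 1)
  (hnonab : ∀ S : Subgroup G, S ≤ E → (∃ e ∈ E, e ∉ S ∧ ∀ r ∈ E, r ∈ S ∨ e * r ∈ S) → ∃ u ∈ S, ∃ v ∈ S, u * v = v * u * z)
  (hT : IsPGroup 2 T) (hET : E ≤ T) (hnorm : ∀ t ∈ T, ∀ e ∈ E, t * e * t⁻¹ ∈ E)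
include hE hA hnonab hT hET hnorm

/-- The contribution of one orbit of `E`. -/
theorem block [DecidableEq X] {c : X} (hmove : ∃ e ∈ E, e • c ≠ c) {B : Finset X}
    (hB : ∀ b, b ∈ B ↔ ∃ e ∈ E, e • c = b) {r : G} (hr : r ∈ T) (hrc : r • c ∈ B) :
    (∏ b ∈ B, a r b) ^ 2 = 1 := by
  classical
  haveI : Fact (Nat.Prime 2) := ⟨Nat.prime_two⟩
  let R : Subgroup G :=
    { carrier := {g | g ∈ T ∧ ∃ e ∈ E, g • c = e • c}
      one_mem' := ⟨T.one_mem, 1, E.one_mem, rfl⟩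
      mul_mem' := fun {g h} hg hh => by
        obtain ⟨hgT, e, he, hge⟩ := hg
        obtain ⟨hhT, f, hf, hhf⟩ := hh
        refine ⟨T.mul_mem hgT hhT, g * f * g⁻¹ * e, E.mul_mem (hnorm g hgT f hf) he, ?_⟩
        rw [mul_smul, hhf, mul_smul (g * f * g⁻¹), ← hge, ← mul_smul, ← mul_smul, inv_mul_cancel_right]
      inv_mem' := fun {g} hg => by
        obtain ⟨hgT, e, he, hge⟩ := hg
        refine ⟨T.inv_mem hgT, (g⁻¹ * e * g⁻¹⁻¹)⁻¹, E.inv_mem (hnorm _ (T.inv_mem hgT) e he), ?_⟩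
        rw [eq_inv_smul_iff, ← mul_smul, inv_mul_cancel_right, mul_smul, ← hge, inv_smul_smul] }
  have hER : E ≤ R := fun e he => ⟨hET he, e, he, rfl⟩
  have hrR : r ∈ R := by
    obtain ⟨e, he, hec⟩ := (hB _).mp hrc
    exact ⟨hr, e, he, hec.symm⟩
  have hRp : IsPGroup 2 R := hT.to_le (fun g hg => hg.1)
  obtain ⟨M', hM', hUM⟩ : ∃ M' : Subgroup R, IsCoatom M' ∧ (MulAction.stabilizer G c).subgroupOf R ≤ M' := by
    rcases IsCoatomic.eq_top_or_exists_le_coatom ((MulAction.stabilizer G c).subgroupOf R) with h | h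
    · obtain ⟨e, he, hec⟩ := hmove
      exact absurd ((Subgroup.subgroupOf_eq_top.mp h) (hER he)) hec
    · exact h
  haveI := hRp.isNilpotent
  haveI hM'n : M'.Normal := Subgroup.NormalizerCondition.normal_of_coatom M' Group.normalizerCondition_of_isNilpotent hM'
  have hsq := (CfsgLib.Regular.coatom_facts hRp hM').2
  obtain ⟨M, hMdef⟩ : ∃ M : Subgroup G, M = M'.map R.subtype := ⟨_, rfl⟩
  have hMmem : ∀ (g : G) (hg : g ∈ R), g ∈ M ↔ (⟨g, hg⟩ : R) ∈ M' := fun g hg => by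
    rw [hMdef]
    exact ⟨fun ⟨y, hy, hyg⟩ => (show y = ⟨g, hg⟩ from Subtype.ext hyg) ▸ hy, fun h => ⟨_, h, rfl⟩⟩
  have hMR : M ≤ R := hMdef ▸ Subgroup.map_subtype_le _
  have hstab : ∀ g ∈ R, g • c = c → g ∈ M := fun g hg h => (hMmem g hg).mpr (hUM h)
  have hMn : ∀ g ∈ R, ∀ m ∈ M, g * m * g⁻¹ ∈ M := fun g hg m hm =>
    (hMmem _ (R.mul_mem (R.mul_mem hg (hMR hm)) (R.inv_mem hg))).mpr (hM'n.conj_mem _ ((hMmem m (hMR hm)).mp hm) ⟨g, hg⟩)
  obtain ⟨e, he, heM⟩ : ∃ e ∈ E, e ∉ M := by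
    by_contra hcon
    push Not at hcon
    refine hM'.1 (eq_top_iff.mpr fun g _ => ?_)
    obtain ⟨-, f, hf, hgf⟩ := g.2
    have h1 : f⁻¹ * (g : G) ∈ M := hstab _ (R.mul_mem (R.inv_mem (hER hf)) g.2) (by rw [mul_smul, hgf, inv_smul_smul])
    have h2 : (g : G) ∈ M := by simpa using M.mul_mem (hcon f hf) h1
    exact (hMmem g g.2).mp h2
  have hee : e * e ∈ M := (hMmem _ (R.mul_mem (hER he) (hER he))).mpr (by
    have := hsq ⟨e, hER he⟩
    rwa [pow_two] at this)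
  have hdich : ∀ g ∈ R, g ∈ M ∨ e * g ∈ M := by
    intro g hg
    have htop : M' ⊔ Subgroup.zpowers (⟨e, hER he⟩ : R) = ⊤ := hM'.2 _ (lt_of_le_of_ne le_sup_left fun h => heM
      ((hMmem e (hER he)).mpr (h ▸ Subgroup.mem_sup_right (Subgroup.mem_zpowers _))))
    obtain ⟨m, hm, v, hv, hmv⟩ := Subgroup.mem_sup_of_normal_left.mp (htop ▸ Subgroup.mem_top (⟨g, hg⟩ : R))
    obtain ⟨k, hk⟩ := mem_powers_iff_mem_zpowers.mpr hv
    dsimp only at hk
    subst hk
    have hgG : g = (m : G) * e ^ k := by simpa using (congrArg Subtype.val hmv).symm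
    have hmM : (m : G) ∈ M := (hMmem m m.2).mpr hm
    rcases Nat.even_or_odd k with ⟨j, hj⟩ | ⟨j, hj⟩
    · left
      rw [hgG, hj, ← two_mul, pow_mul, pow_two]
      exact M.mul_mem hmM (M.pow_mem hee j)
    · right
      rw [hgG, hj, show e * ((m : G) * e ^ (2 * j + 1)) = (e * m * e⁻¹) * (e * e) ^ (j + 1) by
        rw [← pow_two, ← pow_mul, mul_add, mul_one, show 2 * j + 2 = 1 + (2 * j + 1) by omega, pow_add, pow_one]
        group]
      exact M.mul_mem (hMn e (hER he) m hmM) (M.pow_mem hee _)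
  let B0 : Finset X := B.filter fun b => ∃ m ∈ M, m • c = b
  have hRB : ∀ g ∈ R, g • c ∈ B := fun g hg => by
    obtain ⟨-, f, hf, h⟩ := hg
    exact (hB _).mpr ⟨f, hf, h.symm⟩
  have hB0 : ∀ b, b ∈ B0 ↔ ∃ m ∈ M, m • c = b := fun b => by
    simp only [B0, Finset.mem_filter]
    exact ⟨fun h => h.2, fun ⟨m, hm, h⟩ => ⟨h ▸ hRB m (hMR hm), m, hm, h⟩⟩
  have hB0inv : ∀ m ∈ M, ∀ b ∈ B0, m • b ∈ B0 := fun m hm b hb => by
    obtain ⟨m', hm', rfl⟩ := (hB0 b).mp hb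
    exact (hB0 _).mpr ⟨m * m', M.mul_mem hm hm', mul_smul _ _ _⟩
  have hdisj : Disjoint B0 (B0.image (e • ·)) := by
    rw [Finset.disjoint_left]
    intro b hb hb'
    obtain ⟨m, hm, rfl⟩ := (hB0 _).mp hb
    obtain ⟨b', hb', hbe⟩ := Finset.mem_image.mp hb'
    obtain ⟨m', hm', rfl⟩ := (hB0 _).mp hb'
    have hu : m⁻¹ * (e * m') ∈ M := hstab _ (R.mul_mem (R.inv_mem (hMR hm)) (R.mul_mem (hER he) (hMR hm'))) (by
      rw [mul_smul, mul_smul, hbe, inv_smul_smul])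
    exact heM (by simpa using M.mul_mem (M.mul_mem hm hu) (M.inv_mem hm'))
  have hunion : B = B0 ∪ B0.image (e • ·) := by
    ext b
    rw [Finset.mem_union]
    constructor
    · intro hb
      obtain ⟨f, hf, rfl⟩ := (hB b).mp hb
      rcases hdich _ (R.mul_mem (R.inv_mem (hER he)) (hER hf)) with h | h
      · exact Or.inr (Finset.mem_image.mpr ⟨_, (hB0 _).mpr ⟨_, h, rfl⟩, by rw [← mul_smul, mul_inv_cancel_left]⟩)
      · exact Or.inl ((hB0 _).mpr ⟨_, h, by rw [mul_inv_cancel_left]⟩)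
    · rintro (h | h)
      · exact (Finset.mem_filter.mp h).1
      · obtain ⟨b', hb', rfl⟩ := Finset.mem_image.mp h
        obtain ⟨m, hm, rfl⟩ := (hB0 _).mp hb'
        rw [← mul_smul]
        exact hRB _ (R.mul_mem (hER he) (hMR hm))
  have hsplit : ∀ f : X → A, ∏ b ∈ B, f b = (∏ b ∈ B0, f b) * ∏ b ∈ B0, f (e • b) := fun f => by
    rw [hunion, Finset.prod_union hdisj, Finset.prod_image (fun a _ b _ h => MulAction.injective e h)]
  have hφmul : ∀ g, ∀ m ∈ M, ∏ b ∈ B0, a (g * m) b = (∏ b ∈ B0, a g b) * ∏ b ∈ B0, a m b :=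
    fun g m hm => prod_mul ha (hB0inv m hm)
  -- the subgroup `E ⊓ M` has `z` as a commutator, so its squares die
  obtain ⟨u, hu, v, hv, huv⟩ := hnonab (E ⊓ M) inf_le_left ⟨e, he, fun h => heM h.2, fun f hf => by
    rcases hdich f (hER hf) with h | h
    · exact Or.inl ⟨hf, h⟩
    · exact Or.inr ⟨E.mul_mem he hf, h⟩⟩
  have hzM : z ∈ M := by
    rw [show z = (v * u)⁻¹ * (u * v) by rw [huv]; group]
    exact M.mul_mem (M.inv_mem (M.mul_mem hv.2 hu.2)) (M.mul_mem hu.2 hv.2)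
  have hφz : ∏ b ∈ B0, a z b = 1 := by
    have h1 : ∏ b ∈ B0, a (u * v) b = ∏ b ∈ B0, a (v * u * z) b := by rw [huv]
    rw [hφmul u v hv.2, hφmul (v * u) z hzM, hφmul v u hu.2, mul_comm (∏ b ∈ B0, a v b)] at h1
    exact mul_eq_left.mp h1.symm
  have hφsq : ∀ f ∈ E, f ∈ M → (∏ b ∈ B0, a f b) ^ 2 = 1 := fun f hf hfM => by
    rw [pow_two, ← hφmul f f hfM]
    rcases hE.sq_mem hf with h | h
    · rw [h]
      exact Finset.prod_eq_one fun b _ => map_one' ha b
    · rw [h, hφz]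
  have hBinv : ∀ g ∈ R, ∀ b ∈ B, g • b ∈ B := fun g hg b hb => by
    obtain ⟨f, hf, rfl⟩ := (hB b).mp hb
    rw [← mul_smul]
    exact hRB _ (R.mul_mem hg (hER hf))
  have hM2 : ∀ m ∈ M, (∏ b ∈ B, a m b) ^ 2 = 1 := by
    intro m hm
    obtain ⟨m', hm'⟩ : ∃ m', m' = e⁻¹ * m * e := ⟨_, rfl⟩
    have hm'M : m' ∈ M := by
      have := hMn e⁻¹ (R.inv_mem (hER he)) m hm
      rwa [inv_inv, ← hm'] at this
    have key : ∏ b ∈ B0, a m (e • b) = ∏ b ∈ B0, a m' b := by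
      have h1 : ∀ b, a m (e • b) = a e (m' • b) * a m' b * (a e b)⁻¹ := fun b => by
        have h2 := ha m e b
        rw [show m * e = e * m' by rw [hm']; group, ha e m' b] at h2
        rw [h2, mul_inv_cancel_right]
      simp only [h1]
      rw [Finset.prod_mul_distrib, Finset.prod_mul_distrib, prod_reindex (hB0inv m' hm'M) (fun b => a e b),
        Finset.prod_inv_distrib, mul_comm (∏ b ∈ B0, a e b), mul_inv_cancel_right]
    have hk : m⁻¹ * m' ∈ E := by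
      have h1 := hnorm m⁻¹ (T.inv_mem (hMR hm).1) e⁻¹ (E.inv_mem he)
      rw [inv_inv] at h1
      rw [hm', show m⁻¹ * (e⁻¹ * m * e) = (m⁻¹ * e⁻¹ * m) * e by group]
      exact E.mul_mem h1 he
    have hkM : m⁻¹ * m' ∈ M := M.mul_mem (M.inv_mem hm) hm'M
    rw [hsplit, key, show m' = m * (m⁻¹ * m') by group, hφmul m _ hkM, ← mul_assoc, ← pow_two, mul_pow, ← pow_mul,
      hA, one_mul, hφsq _ hk hkM]
  rcases hdich r hrR with h | h
  · exact hM2 r h
  · have he1 : (∏ b ∈ B, a e b) ^ 2 = 1 := by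
      have he2 : ∏ b ∈ B, a e b = ∏ b ∈ B0, a (e * e) b := by
        rw [hsplit, ← Finset.prod_mul_distrib]
        exact Finset.prod_congr rfl fun b _ => by rw [ha, mul_comm]
      rw [he2, hφsq _ (E.mul_mem he he) hee]
    have h2 := hM2 _ h
    rwa [prod_mul ha (hBinv r hrR), mul_pow, he1, one_mul] at h2

omit hA hnonab hT hET hnorm in
theorem prod_pow_smul (g : G) (b : X) (m : ℕ) : ∏ j ∈ Finset.range m, a g (g ^ j • b) = a (g ^ m) b := by
  induction m with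
  | zero => rw [Finset.prod_range_zero, pow_zero, map_one' ha]
  | succ m ih => rw [Finset.prod_range_succ, ih, pow_succ', ha, mul_comm]

/-- An invariant set on which `E` fixes no point contributes an element of order at most two. -/
theorem invariant_set [DecidableEq X] {t : G} (ht : t ∈ T) : ∀ S : Finset X, (∀ b ∈ S, t • b ∈ S) →
    (∀ e ∈ E, ∀ b ∈ S, e • b ∈ S) → (∀ b ∈ S, ∃ e ∈ E, e • b ≠ b) → (∏ b ∈ S, a t b) ^ 2 = 1 := by
  classical
  intro S
  induction S using Finset.strongInduction with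
  | H S ih =>
    intro hSt hSE hSm
    rcases S.eq_empty_or_nonempty with rfl | ⟨c, hc⟩
    · rw [Finset.prod_empty, one_pow]
    let B : Finset X := S.filter fun b => ∃ e ∈ E, e • c = b
    have hB : ∀ b, b ∈ B ↔ ∃ e ∈ E, e • c = b := fun b => by
      simp only [B, Finset.mem_filter]
      exact ⟨fun h => h.2, fun ⟨e, he, h⟩ => ⟨h ▸ hSE e he c hc, e, he, h⟩⟩
    have hpow : ∀ j : ℕ, ∀ b ∈ S, t ^ j • b ∈ S := fun j => by
      induction j with
      | zero => intro b hb; rwa [pow_zero, one_smul]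
      | succ j ihj => intro b hb; rw [pow_succ', mul_smul]; exact hSt _ (ihj b hb)
    have hex : ∃ m : ℕ, 0 < m ∧ t ^ m • c ∈ B := ⟨orderOf t, orderOf_pos t, by
      rw [pow_orderOf_eq_one, one_smul]; exact (hB c).mpr ⟨1, E.one_mem, one_smul _ _⟩⟩
    obtain ⟨m, ⟨hm0, hmB⟩, hmin⟩ : ∃ m, (0 < m ∧ t ^ m • c ∈ B) ∧ ∀ j, 0 < j → j < m → t ^ j • c ∉ B :=
      ⟨Nat.find hex, Nat.find_spec hex, fun j hj0 hj h => Nat.find_min hex hj ⟨hj0, h⟩⟩
    let D : Finset X := (Finset.range m).biUnion fun j => B.image (t ^ j • ·)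
    have hconjpow : ∀ j : ℕ, ∀ e ∈ E, (t ^ j)⁻¹ * e * t ^ j ∈ E := fun j e he => by
      have := hnorm _ (T.inv_mem (T.pow_mem ht j)) e he
      rwa [inv_inv] at this
    have hmem : ∀ b, b ∈ D ↔ ∃ j < m, ∃ e ∈ E, t ^ j • e • c = b := fun b => by
      simp only [D, Finset.mem_biUnion, Finset.mem_range, Finset.mem_image, hB]
      exact ⟨fun ⟨j, hj, b', ⟨e, he, hb'⟩, h⟩ => ⟨j, hj, e, he, by rw [hb', h]⟩,
        fun ⟨j, hj, e, he, h⟩ => ⟨j, hj, _, ⟨e, he, rfl⟩, h⟩⟩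
    have hDS : D ⊆ S := fun b hb => by
      obtain ⟨j, hj, e, he, rfl⟩ := (hmem b).mp hb
      exact hpow j _ (hSE e he c hc)
    have hcD : c ∈ D := (hmem c).mpr ⟨0, hm0, 1, E.one_mem, by rw [pow_zero, one_smul, one_smul]⟩
    have hDt : ∀ b ∈ D, t • b ∈ D := fun b hb => by
      obtain ⟨j, hj, e, he, rfl⟩ := (hmem b).mp hb
      rw [← mul_smul t, ← pow_succ']
      rcases Nat.lt_or_ge (j + 1) m with h | h
      · exact (hmem _).mpr ⟨j + 1, h, e, he, rfl⟩
      · obtain ⟨f, hf, hfc⟩ := (hB _).mp hmB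
        refine (hmem _).mpr ⟨0, hm0, t ^ (j + 1) * e * (t ^ (j + 1))⁻¹ * f,
          E.mul_mem (hnorm _ (T.pow_mem ht _) e he) hf, ?_⟩
        rw [pow_zero, one_smul, mul_smul _ f, hfc, show j + 1 = m by omega, ← mul_smul, ← mul_smul, inv_mul_cancel_right]
    have hDE : ∀ e ∈ E, ∀ b ∈ D, e • b ∈ D := fun e he b hb => by
      obtain ⟨j, hj, f, hf, rfl⟩ := (hmem b).mp hb
      refine (hmem _).mpr ⟨j, hj, (t ^ j)⁻¹ * e * t ^ j * f, E.mul_mem (hconjpow j e he) hf, ?_⟩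
      rw [← mul_smul, ← mul_smul, ← mul_smul]
      congr 1
      group
    have hdisj : ∀ i < m, ∀ j < m, i < j → Disjoint (B.image (t ^ i • ·)) (B.image (t ^ j • ·)) := by
      intro i hi j hj hij
      rw [Finset.disjoint_left]
      intro b hb hb'
      obtain ⟨b₁, hb₁, rfl⟩ := Finset.mem_image.mp hb
      obtain ⟨b₂, hb₂, h⟩ := Finset.mem_image.mp hb'
      obtain ⟨e₁, he₁, rfl⟩ := (hB _).mp hb₁
      obtain ⟨e₂, he₂, rfl⟩ := (hB _).mp hb₂
      have h1 : t ^ (j - i) • e₂ • c = e₁ • c := by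
        have e' : t ^ j = t ^ i * t ^ (j - i) := by rw [← pow_add, Nat.add_sub_cancel' hij.le]
        rw [e', mul_smul] at h
        exact MulAction.injective (t ^ i) h
      refine hmin (j - i) (by omega) (by omega) ((hB _).mpr
        ⟨(t ^ (j - i) * e₂⁻¹ * (t ^ (j - i))⁻¹) * e₁, E.mul_mem (hnorm _ (T.pow_mem ht _) _ (E.inv_mem he₂)) he₁, ?_⟩)
      rw [mul_smul _ e₁, ← h1, ← mul_smul, ← mul_smul, inv_mul_cancel_right, mul_smul, mul_smul, inv_smul_smul]
    have hD2 : (∏ b ∈ D, a t b) ^ 2 = 1 := by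
      rw [Finset.prod_biUnion (fun i hi j hj hij => by
        rcases lt_or_gt_of_ne hij with h | h
        · exact hdisj i (Finset.mem_range.mp hi) j (Finset.mem_range.mp hj) h
        · exact (hdisj j (Finset.mem_range.mp hj) i (Finset.mem_range.mp hi) h).symm)]
      rw [Finset.prod_congr rfl fun j _ => Finset.prod_image (f := fun b => a t b)
        (fun u _ v _ e => MulAction.injective (t ^ j) e), Finset.prod_comm,
        Finset.prod_congr rfl fun b _ => prod_pow_smul ha hE t b m]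
      exact block ha hE hA hnonab hT hET hnorm (hSm c hc) hB (T.pow_mem ht m) hmB
    have hlt : S \ D ⊂ S := Finset.sdiff_ssubset hDS ⟨c, hcD⟩
    rw [← Finset.prod_sdiff hDS, mul_pow, hD2, mul_one]
    refine ih _ hlt (fun b hb => ?_) (fun e he b hb => ?_) (fun b hb => hSm b (Finset.mem_sdiff.mp hb).1)
    · rw [Finset.mem_sdiff] at hb ⊢
      exact ⟨hSt b hb.1, fun h => hb.2 (by simpa using image_inv hDt _ h)⟩
    · rw [Finset.mem_sdiff] at hb ⊢
      exact ⟨hSE e he b hb.1, fun h => hb.2 (by simpa using hDE e⁻¹ (E.inv_mem he) _ h)⟩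

end CfsgLib.Extra2.TransferSq
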